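import Cfsg.Agent.H254.BS.PartI

/-!
# S5717, N2: the number of matrices of given support (helper254)
-/

set_option autoImplicit false

namespace Cfsg.Agent.H254.BS.PI

theorem supp_mem {ι : Type} [Fintype ι] [DecidableEq ι] {F : Type} [Field F] (A : Matrix ι ι F) :
    ∃ μ : F, (A - Matrix.scalar ι μ).rank = supp A :=
  Nat.sInf_mem (s := Set.range fun μ : F => (A - Matrix.scalar ι μ).rank) ⟨_, ⟨0, rfl⟩⟩

theorem t_supp_pos : T_supp_pos := by
  intro F _ _ ι _ _ A h
  obtain ⟨μ, hμ⟩ := supp_mem A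
  rw [h] at hμ
  refine ⟨μ, ?_⟩
  have h1 : (A - Matrix.scalar ι μ).mulVecLin = 0 := by
    rw [← LinearMap.range_eq_bot]
    exact Submodule.finrank_eq_zero.1 hμ
  have h2 : A - Matrix.scalar ι μ = 0 := by
    have h3 : (A - Matrix.scalar ι μ).mulVecLin = (0 : Matrix ι ι F).mulVecLin := by rw [h1, Matrix.mulVecLin_zero]
    exact Matrix.toLin'.injective (by simpa [Matrix.toLin'_apply'] using h3)
  exact sub_eq_zero.1 h2

/-- rank factorization -/
theorem exists_factor {ι : Type} [Fintype ι] [DecidableEq ι] {F : Type} [Field F] (B : Matrix ι ι F) {s : ℕ}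
    (hs : B.rank = s) : ∃ (C : Matrix ι (Fin s) F) (D : Matrix (Fin s) ι F), C * D = B := by
  have hfin : Module.finrank F (LinearMap.range B.mulVecLin) = Module.finrank F (Fin s → F) := by
    rw [Module.finrank_fin_fun]
    exact hs
  let e : LinearMap.range B.mulVecLin ≃ₗ[F] (Fin s → F) := LinearEquiv.ofFinrankEq _ _ hfin
  refine ⟨LinearMap.toMatrix' ((LinearMap.range B.mulVecLin).subtype ∘ₗ e.symm.toLinearMap),
    LinearMap.toMatrix' (e.toLinearMap ∘ₗ B.mulVecLin.rangeRestrict), ?_⟩
  rw [← LinearMap.toMatrix'_comp]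
  have h1 : ((LinearMap.range B.mulVecLin).subtype ∘ₗ e.symm.toLinearMap) ∘ₗ
      (e.toLinearMap ∘ₗ B.mulVecLin.rangeRestrict) = B.mulVecLin := by
    ext v i
    simp
  rw [h1]
  exact LinearMap.toMatrix'_toLin' B

theorem t_count : T_count := by
  intro F _ _ ι _ _ s
  classical
  let f : F × Matrix ι (Fin s) F × Matrix (Fin s) ι F → Matrix ι ι F :=
    fun p => Matrix.scalar ι p.1 + p.2.1 * p.2.2
  have hsub : {A : Matrix ι ι F | supp A = s} ⊆ Set.range f := by
    intro A hA
    obtain ⟨μ, hμ⟩ := supp_mem A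
    obtain ⟨C, D, hCD⟩ := exists_factor (A - Matrix.scalar ι μ) (hμ.trans hA)
    exact ⟨(μ, C, D), by simp [f, hCD]⟩
  calc Nat.card {A : Matrix ι ι F // supp A = s} ≤ Nat.card (Set.range f) :=
        Nat.card_mono (Set.toFinite _) hsub
    _ ≤ Nat.card (F × Matrix ι (Fin s) F × Matrix (Fin s) ι F) := Finite.card_range_le f
    _ = (Fintype.card F) ^ (2 * Fintype.card ι * s + 1) := by
        have h1 : Nat.card (Matrix ι (Fin s) F) = Fintype.card F ^ (Fintype.card ι * s) := by
          rw [show Matrix ι (Fin s) F = (ι → Fin s → F) from rfl, Nat.card_fun, Nat.card_fun]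
          simp only [Nat.card_eq_fintype_card, Fintype.card_fin, ← pow_mul]
          rw [mul_comm]
        have h2 : Nat.card (Matrix (Fin s) ι F) = Fintype.card F ^ (Fintype.card ι * s) := by
          rw [show Matrix (Fin s) ι F = (Fin s → ι → F) from rfl, Nat.card_fun, Nat.card_fun]
          simp only [Nat.card_eq_fintype_card, Fintype.card_fin, ← pow_mul]
        rw [Nat.card_prod, Nat.card_prod, h1, h2, Nat.card_eq_fintype_card, ← pow_add, ← pow_succ']
        congr 1
        ring

end Cfsg.Agent.H254.BS.PI
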