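import Mathlib
import Cfsg.Prelude.Def_LocalEven

/-!
# S5717 (base size linear in the excluded alternating section): common definitions (helper254)

Everything lives in universe 0 (finite groups are transported).
-/

set_option autoImplicit false

namespace Cfsg.Agent.H254.BS

open scoped Pointwise

/-- No section of `G` is isomorphic to the alternating group of degree `d`. -/
abbrev NoAlt (d : ℕ) (G : Type) [Group G] : Prop :=
  ¬ Cfsg.Involves (alternatingGroup (Fin d)) G

/-- `G` has a base of size at most `b` on `Ω`. -/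
def HasBase (G Ω : Type) [Group G] [MulAction G Ω] (b : ℕ) : Prop :=
  ∃ B : Finset Ω, B.card ≤ b ∧ ∀ g : G, (∀ x ∈ B, g • x = x) → g = 1

/-- `G` is generated by at most `k` conjugates of the set `S`. -/
def GenBy (G : Type) [Group G] (S : Set G) (k : ℕ) : Prop :=
  ∃ B : Finset G, B.card ≤ k ∧ Subgroup.closure (⋃ g ∈ B, (fun s => g * s * g⁻¹) '' S) = ⊤

/-- What has to be known of a non-abelian finite simple group `T` (for the excluded degree `d`, constant `c`):
(gen) `T` is generated by `c d` conjugates of any `x ≠ 1`;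
(base) every almost simple group `G` with socle `N ≅ T` has a base of size `c d` on every finite `G`-set without
`N`-fixed points. -/
structure Row (c d : ℕ) (T : Type) [Group T] : Prop where
  gen : ∀ x : T, x ≠ 1 → GenBy T {x} (c * d)
  base : ∀ (G : Type) [Group G] [Finite G] (N : Subgroup G) [N.Normal] (_ : N ≃* T),
    Subgroup.centralizer (N : Set G) = ⊥ →
    ∀ (Ω : Type) [Finite Ω] [Nonempty Ω] [MulAction G Ω], (∀ ω : Ω, ∃ g ∈ N, g • ω ≠ ω) →
      HasBase G Ω (c * d)

/-- All simple groups: the input of the reduction theorem. -/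
def AllRows : Prop :=
  ∃ c : ℕ, ∀ (d : ℕ), 5 ≤ d → ∀ (T : Type) [Group T] [Finite T] [IsSimpleGroup T],
    ¬ IsMulCommutative T → NoAlt d T → Row c d T

/-! ### Fixed point ratios and steps in a finite group `M` (matrix group, quasisimple) -/

/-- number of points of `Ω` fixed by every element of `S` -/
noncomputable def fixNum (M Ω : Type) [Group M] [MulAction M Ω] (S : Set M) : ℕ :=
  Nat.card {ω : Ω // ∀ s ∈ S, s • ω = ω}

/-- `S` fixes at most `δ |Ω|` points of any finite `M`-set `Ω` without global fixed points. -/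
def Fix (M : Type) [Group M] (S : Set M) (δ : ℝ) : Prop :=
  ∀ (Ω : Type) [Finite Ω] [MulAction M Ω], (∀ ω : Ω, ∃ g : M, g • ω ≠ ω) →
    (fixNum M Ω S : ℝ) ≤ δ * Nat.card Ω

/-- A step from the set `S` to the family `R`: there is a subgroup `Y` such that for all but `ε |Y|` of the
`y ∈ Y` the group `⟨S, y S y⁻¹⟩` contains a member of `R`. -/
def Stp (M : Type) [Group M] (S : Set M) (R : Set (Set M)) (ε : ℝ) : Prop :=
  ∃ Y : Subgroup M,
    (Nat.card {y : Y // ¬ ∃ S' ∈ R, S' ⊆ (Subgroup.closure
      (S ∪ (fun s => (y : M) * s * (y : M)⁻¹) '' S) : Subgroup M)} : ℝ) ≤ ε * Nat.card Y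

/-- the family of all conjugates of the set `S` -/
def conjFam (M : Type) [Group M] (S : Set M) : Set (Set M) :=
  {S' | ∃ g : M, S' = (fun s => g * s * g⁻¹) '' S}

end Cfsg.Agent.H254.BS
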